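import Mathlib
import Cfsg.Agent.Lib.Helper49.HJO.Defs
import Cfsg.Agent.Lib.Helper22.Comp
import Cfsg.Agent.Lib.Helper93.LargeExtra

/-!
# S3313 (HJO) package [EXTRA]

`O_2(C(z))`, viewed inside `G`, is extraspecial of order 32 with centre `{1, z}`.
-/

set_option autoImplicit false

namespace Cfsg.Agent.Lib.Helper23.HJO

open Cfsg.Agent.Lib.Helper49.HJO
open scoped commutatorElement

universe u

/-- `O_2(H) = F*(H)` when `F*(H)` is a `2`-group. -/
theorem pCore_eq_gfit {H : Type u} [Group H] [Finite H]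
    (hP : IsPGroup 2 ↥(Cfsg.generalizedFittingSubgroup H)) :
    Cfsg.pCore 2 H = Cfsg.generalizedFittingSubgroup H := by
  have hprime : Fact (Nat.Prime 2) := ⟨Nat.prime_two⟩
  apply le_antisymm
  · have hn : (Cfsg.pCore 2 H).Normal := Cfsg.Agent.Lib.Helper93.pCore_normal 2 _
    have hp : IsPGroup 2 ↥(Cfsg.pCore 2 H) := Cfsg.Agent.Lib.Helper93.pCore_isPGroup' _
    have hnil : Group.IsNilpotent ↥(Cfsg.pCore 2 H) := hp.isNilpotent
    have h1 : Cfsg.pCore 2 H ≤ Cfsg.fittingSubgroup H := le_sSup ⟨hn, hnil⟩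
    exact h1.trans le_sup_right
  · exact le_sSup ⟨Cfsg.Agent.Lib.Helper22.generalizedFittingSubgroup_normal' _, hP⟩

theorem pkgExtra : PkgExtra.{u} := by
  intro G _ _ z hz hex hcard
  have hprime : Fact (Nat.Prime 2) := ⟨Nat.prime_two⟩
  have hOP := pCore_eq_gfit (H := ↥(Subgroup.centralizer ({z} : Set G))) hex.1.1
  rw [← hOP] at hex
  have hzz : z * z = 1 := by rw [← pow_two, ← hz, pow_orderOf_eq_one]
  have hz1 : z ≠ 1 := by
    rintro rfl
    simp at hz
  have hzQ : z ∈ (Cfsg.pCore 2 ↥(Subgroup.centralizer ({z} : Set G))).map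
      (Subgroup.centralizer ({z} : Set G)).subtype :=
    Cfsg.Agent.Lib.Helper93.self_mem_coreQ hzz
  have hnorm : (Cfsg.pCore 2 ↥(Subgroup.centralizer ({z} : Set G))).Normal :=
    Cfsg.Agent.Lib.Helper93.pCore_normal 2 _
  obtain ⟨⟨hP, hF, hD⟩, hc2⟩ := hex
  -- the element z inside O
  obtain ⟨z', hz'O, hz'z⟩ := hzQ
  have hz'c : ∀ h : ↥(Subgroup.centralizer ({z} : Set G)), h * z' = z' * h := by
    intro h
    apply Subtype.ext
    have hh := h.2
    rw [Subgroup.mem_centralizer_iff] at hh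
    have h2 : ((z' : ↥(Subgroup.centralizer ({z} : Set G))) : G) = z := hz'z
    simp only [Subgroup.coe_mul, h2]
    exact (hh z rfl).symm
  have hzc : (⟨z', hz'O⟩ : ↥(Cfsg.pCore 2 ↥(Subgroup.centralizer ({z} : Set G)))) ∈
      Subgroup.center ↥(Cfsg.pCore 2 ↥(Subgroup.centralizer ({z} : Set G))) := by
    rw [Subgroup.mem_center_iff]
    rintro ⟨v, hv⟩
    apply Subtype.ext
    exact hz'c v
  have hcen : ∀ c : ↥(Cfsg.pCore 2 ↥(Subgroup.centralizer ({z} : Set G))),
      c ∈ Subgroup.center ↥(Cfsg.pCore 2 ↥(Subgroup.centralizer ({z} : Set G))) →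
        (((c : ↥(Subgroup.centralizer ({z} : Set G))) : G) = 1 ∨
          ((c : ↥(Subgroup.centralizer ({z} : Set G))) : G) = z) := by
    intro c hc
    rw [Nat.card_eq_two_iff' (1 : Subgroup.center
      ↥(Cfsg.pCore 2 ↥(Subgroup.centralizer ({z} : Set G))))] at hc2
    obtain ⟨y, hy, huniq⟩ := hc2
    by_cases h1 : ((c : ↥(Subgroup.centralizer ({z} : Set G))) : G) = 1
    · exact Or.inl h1
    · right
      have e1 : (⟨c, hc⟩ : Subgroup.center
          ↥(Cfsg.pCore 2 ↥(Subgroup.centralizer ({z} : Set G)))) = y := by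
        apply huniq
        intro h
        apply h1
        have := congrArg (fun t : Subgroup.center
          ↥(Cfsg.pCore 2 ↥(Subgroup.centralizer ({z} : Set G))) =>
            (((t : ↥(Cfsg.pCore 2 ↥(Subgroup.centralizer ({z} : Set G)))) :
              ↥(Subgroup.centralizer ({z} : Set G))) : G)) h
        simpa using this
      have e2 : (⟨⟨z', hz'O⟩, hzc⟩ : Subgroup.center
          ↥(Cfsg.pCore 2 ↥(Subgroup.centralizer ({z} : Set G)))) = y := by
        apply huniq
        intro h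
        apply hz1
        have := congrArg (fun t : Subgroup.center
          ↥(Cfsg.pCore 2 ↥(Subgroup.centralizer ({z} : Set G))) =>
            (((t : ↥(Cfsg.pCore 2 ↥(Subgroup.centralizer ({z} : Set G)))) :
              ↥(Subgroup.centralizer ({z} : Set G))) : G)) h
        have h3 : ((z' : ↥(Subgroup.centralizer ({z} : Set G))) : G) = z := hz'z
        simpa [h3] using this
      have := congrArg (fun t : Subgroup.center
          ↥(Cfsg.pCore 2 ↥(Subgroup.centralizer ({z} : Set G))) =>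
            (((t : ↥(Cfsg.pCore 2 ↥(Subgroup.centralizer ({z} : Set G)))) :
              ↥(Subgroup.centralizer ({z} : Set G))) : G)) (e1.trans e2.symm)
      have h3 : ((z' : ↥(Subgroup.centralizer ({z} : Set G))) : G) = z := hz'z
      simpa [h3] using this
  refine ⟨⟨z', hz'O, hz'z⟩, Subgroup.map_subtype_le _, ?_, ?_, ?_, ?_, ?_⟩
  · -- Qn
    rintro h hh _ ⟨q, hq, rfl⟩
    refine ⟨⟨h, hh⟩ * q * ⟨h, hh⟩⁻¹, hnorm.conj_mem q hq _, ?_⟩
    simp
  · -- cardQ
    rw [Subgroup.card_map_of_injective (Subgroup.subtype_injective _)]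
    exact hcard
  · -- sq
    rintro _ ⟨v, hv, rfl⟩
    have hmem : (⟨v, hv⟩ : ↥(Cfsg.pCore 2 ↥(Subgroup.centralizer ({z} : Set G)))) * ⟨v, hv⟩ ∈
        Subgroup.center ↥(Cfsg.pCore 2 ↥(Subgroup.centralizer ({z} : Set G))) := by
      rw [← hF]
      exact Cfsg.Agent.Lib.Helper93.sq_mem_frattini hP _
    have h := hcen _ hmem
    simpa using h
  · -- comm
    rintro _ ⟨v, hv, rfl⟩ _ ⟨w, hw, rfl⟩
    have hmem : ⁅(⟨v, hv⟩ : ↥(Cfsg.pCore 2 ↥(Subgroup.centralizer ({z} : Set G)))), ⟨w, hw⟩⁆ ∈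
        Subgroup.center ↥(Cfsg.pCore 2 ↥(Subgroup.centralizer ({z} : Set G))) := by
      rw [← hD]
      exact Subgroup.commutator_mem_commutator (Subgroup.mem_top _) (Subgroup.mem_top _)
    have h := hcen _ hmem
    rw [commutatorElement_def] at h
    simp only [Subgroup.coe_mul, Subgroup.coe_inv, Subgroup.coe_subtype] at h ⊢
    rcases h with h | h
    · left
      calc (v : G) * w = ((v : G) * w * (v : G)⁻¹ * (w : G)⁻¹) * (w * v) := by group
        _ = w * v := by rw [h, one_mul]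
    · right
      calc (v : G) * w = ((v : G) * w * (v : G)⁻¹ * (w : G)⁻¹) * (w * v) := by group
        _ = z * (w * v) := by rw [h]
  · -- cen
    rintro _ ⟨v, hv, rfl⟩ hcv
    have : (⟨v, hv⟩ : ↥(Cfsg.pCore 2 ↥(Subgroup.centralizer ({z} : Set G)))) ∈
        Subgroup.center ↥(Cfsg.pCore 2 ↥(Subgroup.centralizer ({z} : Set G))) := by
      rw [Subgroup.mem_center_iff]
      rintro ⟨w, hw⟩
      apply Subtype.ext
      apply Subtype.ext
      have := hcv (w : G) ⟨w, hw, rfl⟩
      simpa using this.symm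
    exact hcen _ this

end Cfsg.Agent.Lib.Helper23.HJO
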